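import Cfsg.Agent.Lib.Helper9.S3805.Defs
import Cfsg.Agent.Lib.Helper80.CharKer

/-!
# S3805: assembly of the packages
-/

set_option autoImplicit false
set_option maxRecDepth 100000

namespace Cfsg.Agent.Lib.Helper9.S3805

universe u

/-! ### Facts about the model group, by `decide` -/

theorem d_i2 : i₀ * i₀ = 1 := by decide
theorem d_j2 : j₀ * j₀ = 1 := by decide
theorem d_i_ne : i₀ ≠ 1 := by decide
theorem d_j_ne : j₀ ≠ 1 := by decide
theorem d_b3 : b₀ * b₀ * b₀ = 1 := by decide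
theorem d_ib : i₀ * b₀ = (DihedralGroup.sr 0, DihedralGroup.r 1) := by decide
theorem d_ib_comm : i₀ * b₀ = b₀ * i₀ := by decide
theorem d_swap_t : (((i₀ * j₀).2, (i₀ * j₀).1) : P) = i₀ * j₀ := by decide
theorem d_swap_i : ((i₀.2, i₀.1) : P) = j₀ := by decide
theorem d_swap_j : ((j₀.2, j₀.1) : P) = i₀ := by decide
theorem d_ii : ∀ p : P, i₀ * (i₀ * p) = p := by decide
theorem d_iC : ∀ p : P, inC1 p = false → inC1 (i₀ * p) = true := by decide
theorem d_pair : (i₀ * a₀ * i₀⁻¹ * (i₀ * a₀ * i₀⁻¹) = 1 → False) := by decide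
theorem d_pair1 : (a₀ * i₀ * a₀⁻¹) * (a₀ * i₀ * a₀⁻¹) = 1 := by decide
theorem d_pair2 : a₀ * i₀ * a₀⁻¹ ≠ 1 := by decide
theorem d_pair3 : inA1 (i₀ * (a₀ * i₀ * a₀⁻¹)) = true := by decide
theorem cnt1 : pairCount (fun p => !isRot p.1) = 96 := by decide
theorem cnt3 : pairCount (fun p => !isRot p.2) = 54 := by decide
theorem cls_fact : ∀ p : P, p * p = 1 → inC1 p = false →
    ∃ q : P, q * p * q⁻¹ = i₀ ∨ q * p * q⁻¹ = i₀ * j₀ := by decide
theorem cls_fact2 : ∀ p : P, p * p = 1 → p ≠ 1 → inC1 p = true → ∃ q : P, q * p * q⁻¹ = j₀ := by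
  decide
theorem sq_fact : ∀ p : P, inA1 p = true → inT (p * p) = true ∧ p * p ≠ 1 := by decide
theorem swap_sq : ∀ p : P, p * p = 1 → ((p.2, p.1) : P) * (p.2, p.1) = 1 := by decide
theorem swap_ne : ∀ p : P, p ≠ 1 → ((p.2, p.1) : P) ≠ 1 := by decide

/-! ### Transfer to `G` -/

section
variable {G : Type u} [Group G] {T : Subgroup G}

theorem Exc1.congr {M M' : Model G T} {E F : G → ℂ} (h : Exc1 M E F)
    (hM : ∀ p, M'.ψ p = M.ψ p) : Exc1 M' E F where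
  irrE := h.irrE
  irrF := h.irrF
  neE := h.neE
  neF := h.neF
  deg := h.deg
  off := fun g hg => h.off g (fun x p hp => by rw [← hM]; exact hg x p hp)
  on := fun p hp => by rw [hM]; exact h.on p hp

theorem swap_i (M : Model G T) : M.swap.ψ i₀ = M.ψ j₀ := by
  rw [Model.swap_ψ, d_swap_i]

theorem swap_j (M : Model G T) : M.swap.ψ j₀ = M.ψ i₀ := by
  rw [Model.swap_ψ, d_swap_j]

theorem swap_t (M : Model G T) : M.swap.ψ (i₀ * j₀) = M.ψ (i₀ * j₀) := by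
  rw [Model.swap_ψ, d_swap_t]

theorem psi_sq_eq_one (M : Model G T) {p : P} (h : M.ψ p * M.ψ p = 1) : p * p = 1 := by
  apply M.inj
  rw [map_mul, h, map_one]

theorem conj_sq {z : G} (hz : z * z = 1) (x : G) : x * z * x⁻¹ * (x * z * x⁻¹) = 1 := by
  have : x * z * x⁻¹ * (x * z * x⁻¹) = x * (z * z) * x⁻¹ := by group
  rw [this, hz]
  group

theorem invol_not_A1 (M : Model G T) {z : G} (hz : z * z = 1) (x : G) (p : P)
    (hp : inA1 p = true) : x * z * x⁻¹ ≠ M.ψ p := by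
  intro h
  have h2 : M.ψ p * M.ψ p = 1 := by
    rw [← h]
    exact conj_sq hz x
  exact (sq_fact p hp).2 (psi_sq_eq_one M h2)

theorem conj_class (M : Model G T) {z : G} (hz : z * z = 1) {g : G} {p : P}
    (hp : inC1 p = false) (h : g * z * g⁻¹ = M.ψ p) :
    (∃ g' : G, g' * z * g'⁻¹ = M.ψ i₀) ∨ (∃ g' : G, g' * z * g'⁻¹ = M.ψ (i₀ * j₀)) := by
  have hpp : p * p = 1 := psi_sq_eq_one M (by rw [← h]; exact conj_sq hz g)
  obtain ⟨q, hq | hq⟩ := cls_fact p hpp hp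
  · left
    refine ⟨M.ψ q * g, ?_⟩
    rw [← hq, map_mul, map_mul, map_inv, ← h]
    group
  · right
    refine ⟨M.ψ q * g, ?_⟩
    rw [← hq, map_mul, map_mul, map_inv, ← h]
    group

end

/-! ### Case C -/

theorem caseC (hTI : PkgTI.{u}) (hTIA : PkgTIA.{u}) (hTISum : PkgTISum.{u}) (hKer : PkgKer.{u})
    (hCCount : PkgCCount.{u}) (hCLin2 : PkgCLin2.{u}) (hCLin3 : PkgCLin3.{u})
    (hCTwist : PkgCTwist.{u}) (hCCong : PkgCCong.{u}) (hCArith : PkgCArith)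
    {G : Type u} [Group G] [Finite G] (T : Sylow 3 G) (M : Model G (T : Subgroup G))
    (hloc : Loc (T : Subgroup G)) (E1 F1 E3 F3 : G → ℂ) (h1 : Exc1 M E1 F1)
    (h3 : Exc1 M.swap E3 F3) (hsyl : ∀ g : G, g * M.ψ i₀ * g⁻¹ ≠ M.ψ j₀)
    (hconj : ∃ g : G, g * M.ψ i₀ * g⁻¹ = M.ψ (i₀ * j₀)) : False := by
  classical
  haveI : Fintype G := Fintype.ofFinite G
  obtain ⟨g₀, hg₀⟩ := hconj
  have hi2 : M.ψ i₀ * M.ψ i₀ = 1 := by rw [← map_mul, d_i2, map_one]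
  have hj2 : M.ψ j₀ * M.ψ j₀ = 1 := by rw [← map_mul, d_j2, map_one]
  have hi1 : M.ψ i₀ ≠ 1 := fun h => d_i_ne (M.inj (h.trans (map_one _).symm))
  have hj1 : M.ψ j₀ ≠ 1 := fun h => d_j_ne (M.inj (h.trans (map_one _).symm))
  -- Step 1: `j` lies in the kernels
  have hjker := hKer hTIA (T : Subgroup G) M hloc E1 F1 h1 (M.ψ j₀) hj2 hj1 (by
    intro g p hp h
    rcases conj_class M hj2 hp h with ⟨g', hg'⟩ | ⟨g', hg'⟩
    · exact hsyl g'⁻¹ (by rw [← hg']; group)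
    · exact hsyl (g'⁻¹ * g₀) (by
        have : M.ψ j₀ = g'⁻¹ * (g₀ * M.ψ i₀ * g₀⁻¹) * g' := by rw [hg₀, ← hg']; group
        rw [this]; group))
  -- Step 2: `i` is not in the kernel of `E1`
  have hoffi : F1 (M.ψ i₀) - E1 (M.ψ i₀) = 1 :=
    h1.off (M.ψ i₀) (fun x p hp => invol_not_A1 M hi2 x p hp)
  have hoffi3 : F3 (M.ψ i₀) - E3 (M.ψ i₀) = 1 :=
    h3.off (M.ψ i₀) (fun x p hp => invol_not_A1 M.swap hi2 x p hp)
  have hc0 : (Nat.card (Subgroup.centralizer ({M.ψ i₀} : Set G)) : ℂ) ≠ 0 := by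
    have : Nat.card (Subgroup.centralizer ({M.ψ i₀} : Set G)) ≠ 0 := Nat.card_pos.ne'
    exact_mod_cast this
  have he1 := Cfsg.Agent.Lib.Helper80.char_one_ne_zero h1.irrE
  have hf1 := Cfsg.Agent.Lib.Helper80.char_one_ne_zero h1.irrF
  have hnotker : E1 (M.ψ i₀) ≠ E1 1 := by
    intro hE
    let Z : P → Bool := fun p => decide (∃ g : G, g * M.ψ i₀ * g⁻¹ = M.ψ p)
    have hcnt := hCCount hTIA hTISum (T : Subgroup G) M hloc E1 F1 h1 (M.ψ i₀) hi2 hi1 Z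
      (fun p _ _ => by simp [Z])
    have hpos : 0 < pairCount Z := by
      unfold pairCount
      apply Finset.card_pos.mpr
      refine ⟨(i₀, a₀ * i₀ * a₀⁻¹), ?_⟩
      rw [Finset.mem_filter]
      refine ⟨Finset.mem_univ _, d_i2, d_i_ne, d_pair1, d_pair2, ?_, ?_, d_pair3⟩
      · simp only [Z, decide_eq_true_eq]
        exact ⟨1, by simp⟩
      · simp only [Z, decide_eq_true_eq]
        exact ⟨M.ψ a₀, by rw [map_mul, map_mul, map_inv]⟩
    have hFi : F1 (M.ψ i₀) = F1 1 := by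
      rw [h1.deg, ← hE]
      linear_combination hoffi
    rw [hE, hFi] at hcnt
    have hz : (1 : ℂ) + E1 1 ^ 2 / E1 1 - F1 1 ^ 2 / F1 1 = 0 := by
      have h2 := h1.deg
      field_simp
      linear_combination (-1 : ℂ) * h2
    rw [hz, mul_zero] at hcnt
    have hpc : ((pairCount Z : ℕ) : ℂ) ≠ 0 := by exact_mod_cast hpos.ne'
    exact mul_ne_zero (pow_ne_zero 2 hc0) hpc hcnt
  -- Step 3: `E1` is a sign character
  obtain ⟨K, hKn, hK⟩ := Cfsg.Agent.Lib.Helper80.exists_ker_subgroup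
    (Cfsg.Agent.Lib.Helper80.isCharacter_of_isIrrCharacter h1.irrE)
  obtain ⟨lam, hpm, hlamC, hlami⟩ := hCLin2 hTI T M hloc K hKn ((hK _).2 hjker.1)
    (fun h => hnotker ((hK _).1 h))
  have hE1 := hCLin3 hTISum (T : Subgroup G) M hloc E1 F1 h1 lam hlamC hlami
  have hE11 : E1 1 = 1 := by rw [hE1, map_one, Units.val_one]
  have hE1i : E1 (M.ψ i₀) = -1 := by rw [hE1, hlami, Units.val_neg, Units.val_one]
  have hF11 : F1 1 = 2 := by rw [h1.deg, hE11]; norm_num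
  have hF1i : F1 (M.ψ i₀) = 0 := by linear_combination hoffi + hE1i
  -- Step 4: counting on side 1
  have hZ1 : ∀ p : P, p * p = 1 → p ≠ 1 →
      ((!isRot p.1) = true ↔ ∃ g : G, g * M.ψ i₀ * g⁻¹ = M.ψ p) := by
    intro p hpp hp1
    constructor
    · intro hr
      have hc : inC1 p = false := by simpa [inC1] using hr
      obtain ⟨q, hq | hq⟩ := cls_fact p hpp hc
      · refine ⟨(M.ψ q)⁻¹, ?_⟩
        rw [← hq, map_mul, map_mul, map_inv]
        group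
      · refine ⟨(M.ψ q)⁻¹ * g₀, ?_⟩
        have h2 : (M.ψ q)⁻¹ * g₀ * M.ψ i₀ * ((M.ψ q)⁻¹ * g₀)⁻¹ =
            (M.ψ q)⁻¹ * (g₀ * M.ψ i₀ * g₀⁻¹) * M.ψ q := by group
        rw [h2, hg₀, ← hq, map_mul, map_mul, map_inv]
        group
    · rintro ⟨g, hg⟩
      by_contra hr
      have hc : inC1 p = true := by simpa [inC1] using hr
      obtain ⟨q, hq⟩ := cls_fact2 p hpp hp1 hc
      refine hsyl (M.ψ q * g) ?_
      rw [← hq, map_mul, map_mul, map_inv, ← hg]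
      group
  have hcnt1 := hCCount hTIA hTISum (T : Subgroup G) M hloc E1 F1 h1 (M.ψ i₀) hi2 hi1
    (fun p => !isRot p.1) hZ1
  rw [cnt1, hE1i, hE11, hF1i, hF11] at hcnt1
  -- Step 5: counting on side 3
  have hZ3 : ∀ p : P, p * p = 1 → p ≠ 1 →
      ((!isRot p.2) = true ↔ ∃ g : G, g * M.ψ i₀ * g⁻¹ = M.swap.ψ p) := by
    intro p hpp hp1
    exact hZ1 (p.2, p.1) (swap_sq p hpp) (swap_ne p hp1)
  have hcnt3 := hCCount hTIA hTISum (T : Subgroup G) M.swap hloc E3 F3 h3 (M.ψ i₀) hi2 hi1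
    (fun p => !isRot p.2) hZ3
  rw [cnt3] at hcnt3
  -- Step 6: the arithmetic relation
  have hE3char := Cfsg.Agent.Lib.Helper80.isCharacter_of_isIrrCharacter h3.irrE
  have he := Cfsg.Agent.Lib.Helper80.char_one_eq_charDegree hE3char
  have hepos := Cfsg.Agent.Lib.Helper80.charDegree_pos h3.irrE
  generalize Cfsg.charDegree E3 = e at he hepos
  have hF3i : F3 (M.ψ i₀) = E3 (M.ψ i₀) + 1 := by linear_combination hoffi3
  have hF31 : F3 1 = (e : ℂ) + 1 := by rw [h3.deg, he]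
  have he0 : (e : ℂ) ≠ 0 := by exact_mod_cast hepos.ne'
  have he1' : (e : ℂ) + 1 ≠ 0 := by exact_mod_cast (Nat.succ_ne_zero e)
  have hkey : 8 * ((e : ℂ) - E3 (M.ψ i₀)) ^ 2 = 9 * (e : ℂ) * ((e : ℂ) + 1) := by
    rw [hF3i, hF31, he] at hcnt3
    have hc2 : (Nat.card (Subgroup.centralizer ({M.ψ i₀} : Set G)) : ℂ) ^ 2 ≠ 0 :=
      pow_ne_zero 2 hc0
    have h' : (1 : ℂ) + (-1) ^ 2 / 1 - 0 ^ 2 / 2 = 2 := by norm_num
    rw [h'] at hcnt1
    have hG : (Nat.card G : ℂ) =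
        4 * (Nat.card (Subgroup.centralizer ({M.ψ i₀} : Set G)) : ℂ) ^ 2 := by
      push_cast at hcnt1
      linear_combination (-1 / 24 : ℂ) * hcnt1
    rw [hG] at hcnt3
    have h54 : (54 : ℂ) = 48 * (1 + E3 (M.ψ i₀) ^ 2 / e - (E3 (M.ψ i₀) + 1) ^ 2 / (e + 1)) := by
      apply mul_left_cancel₀ hc2
      push_cast at hcnt3
      linear_combination hcnt3
    field_simp at h54
    linear_combination (-1 / 6 : ℂ) * h54
  -- Step 7: the twist
  have hlamN : ∀ p : P, lam (M.swap.ψ p) = if isRot p.2 = true then 1 else -1 := by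
    intro p
    by_cases hr : isRot p.2 = true
    · rw [if_pos hr]
      exact hlamC (p.2, p.1) hr
    · rw [if_neg hr]
      have hr' : inC1 ((p.2, p.1) : P) = false := by simpa [inC1] using hr
      have h1' : ((p.2, p.1) : P) = i₀ * (i₀ * (p.2, p.1)) := (d_ii _).symm
      have h2' : inC1 (i₀ * ((p.2, p.1) : P)) = true := d_iC _ hr'
      rw [Model.swap_ψ, h1', map_mul, map_mul, hlami, hlamC _ h2', mul_one]
  rcases hCTwist hTISum (T : Subgroup G) M.swap hloc E3 F3 h3 lam hpm hlamN with hw | hz | hl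
  · have hw' : E3 (M.ψ i₀ * M.ψ b₀) = 1 := by
      rw [← map_mul, d_ib]
      exact hw
    obtain ⟨k, hk⟩ := hCCong E3 hE3char (M.ψ i₀) (M.ψ b₀) hi2
      (by rw [← map_mul, ← map_mul, d_b3, map_one])
      (by rw [← map_mul, ← map_mul, d_ib_comm]) hw'
    rw [hk] at hkey
    exact hCArith e k hepos (by exact_mod_cast hkey)
  · have h0 : E3 (M.ψ i₀) = 0 := hz _ hlami
    rw [h0] at hkey
    have h9 : (e : ℂ) * ((e : ℂ) + 9) = 0 := by linear_combination (-1 : ℂ) * hkey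
    have h9' : e * (e + 9) = 0 := by exact_mod_cast h9
    rcases Nat.mul_eq_zero.mp h9' with h | h <;> omega
  · have h1' : E3 1 = 1 := by rw [hl, map_one, Units.val_one]
    have h2' : E3 (M.ψ i₀) = -1 := by rw [hl, hlami, Units.val_neg, Units.val_one]
    rw [he] at h1'
    rw [h2', h1'] at hkey
    norm_num at hkey

/-! ### The main theorem from the packages -/

theorem main_of_pkgs (hA : PkgSetupA.{u}) (hB : PkgSetupB.{u}) (hTI : PkgTI.{u})
    (hTIA : PkgTIA.{u}) (hExc : PkgExc.{u}) (hKer : PkgKer.{u}) (hSyl : PkgSyl.{u})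
    (hEnd : PkgEnd.{u}) (hTISum : PkgTISum.{u}) (hCCount : PkgCCount.{u})
    (hCLin2 : PkgCLin2.{u}) (hCLin3 : PkgCLin3.{u}) (hCTwist : PkgCTwist.{u})
    (hCCong : PkgCCong.{u}) (hCArith : PkgCArith)
    {G : Type u} [Group G] [Finite G]
    (T : Sylow 3 G) (hT : Cfsg.IsElementaryAbelian 3 (T : Subgroup G)) (hcard : Nat.card T = 9)
    (hC : Subgroup.centralizer ((T : Subgroup G) : Set G) = T)
    [hn : ((T : Subgroup G).subgroupOf (Subgroup.normalizer ((T : Subgroup G) : Set G))).Normal]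
    (hK : IsKleinFour (↥(Subgroup.normalizer ((T : Subgroup G) : Set G)) ⧸
      (T : Subgroup G).subgroupOf (Subgroup.normalizer ((T : Subgroup G) : Set G))))
    (hloc : ∀ t ∈ (T : Subgroup G), t ≠ 1 →
      Subgroup.centralizer ({t} : Set G) ≤ Subgroup.normalizer ((T : Subgroup G) : Set G)) :
    Subgroup.normalizer ((T : Subgroup G) : Set G) = ⊤ := by
  obtain ⟨M⟩ := hB (T : Subgroup G) (hA T hT hcard hC hK)
  have hloc' : Loc (T : Subgroup G) := hloc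
  obtain ⟨E1, F1, h1⟩ := hExc hTIA (T : Subgroup G) M hloc'
  obtain ⟨E3, F3, h3⟩ := hExc hTIA (T : Subgroup G) M.swap hloc'
  have hsyl := hSyl hTI T M hloc'
  have hsyl' : ∀ g : G, g * M.ψ j₀ * g⁻¹ ≠ M.ψ i₀ := fun g h => hsyl g⁻¹ (by rw [← h]; group)
  have hi2 : M.ψ i₀ * M.ψ i₀ = 1 := by rw [← map_mul, d_i2, map_one]
  have hj2 : M.ψ j₀ * M.ψ j₀ = 1 := by rw [← map_mul, d_j2, map_one]
  have hi1 : M.ψ i₀ ≠ 1 := fun h => d_i_ne (M.inj (h.trans (map_one _).symm))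
  have hj1 : M.ψ j₀ ≠ 1 := fun h => d_j_ne (M.inj (h.trans (map_one _).symm))
  by_cases hC1 : ∃ g : G, g * M.ψ i₀ * g⁻¹ = M.ψ (i₀ * j₀)
  · exact (caseC hTI hTIA hTISum hKer hCCount hCLin2 hCLin3 hCTwist hCCong hCArith T M hloc'
      E1 F1 E3 F3 h1 h3 hsyl hC1).elim
  by_cases hC2 : ∃ g : G, g * M.ψ j₀ * g⁻¹ = M.ψ (i₀ * j₀)
  · refine (caseC hTI hTIA hTISum hKer hCCount hCLin2 hCLin3 hCTwist hCCong hCArith T M.swap
      hloc' E3 F3 E1 F1 h3 (h1.congr (fun p => rfl)) ?_ ?_).elim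
    · intro g
      rw [swap_i, swap_j]
      exact hsyl' g
    · obtain ⟨g, hg⟩ := hC2
      exact ⟨g, by rw [swap_i, swap_t]; exact hg⟩
  · have hkerj := hKer hTIA (T : Subgroup G) M hloc' E1 F1 h1 (M.ψ j₀) hj2 hj1 (by
      intro g p hp h
      rcases conj_class M hj2 hp h with ⟨g', hg'⟩ | ⟨g', hg'⟩
      · exact hsyl' g' hg'
      · exact hC2 ⟨g', hg'⟩)
    have hkeri := hKer hTIA (T : Subgroup G) M.swap hloc' E3 F3 h3 (M.ψ i₀) hi2 hi1 (by
      intro g p hp h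
      rcases conj_class M.swap hi2 hp h with ⟨g', hg'⟩ | ⟨g', hg'⟩
      · rw [swap_i] at hg'
        exact hsyl g' hg'
      · rw [swap_t] at hg'
        exact hC1 ⟨g', hg'⟩)
    exact hEnd hTI T M hloc' E1 F1 E3 F3 h1 h3 hkerj.1 hkerj.2 hkeri.1 hkeri.2

end Cfsg.Agent.Lib.Helper9.S3805
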