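import Cfsg.Agent.Lib.Helper9.S3805.Defs
import Cfsg.Agent.Lib.Helper3.ExcPair

/-!
# S3805: existence of the exceptional pair (package `PkgExc`)
-/

set_option autoImplicit false
set_option maxRecDepth 100000

namespace Cfsg.Agent.Lib.Helper9.S3805

universe u

open scoped ComplexConjugate
open Cfsg.Agent.Lib.Helper3

theorem e_C1_mul : ∀ a b : P, inC1 a = true → inC1 b = true → inC1 (a * b) = true := by decide
theorem e_C1_inv : ∀ a : P, inC1 a = true → inC1 a⁻¹ = true := by decide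

/-- `C1₀` as a subgroup of `P`. -/
def C1sub : Subgroup P where
  carrier := {p | inC1 p = true}
  mul_mem' := fun {a b} ha hb => e_C1_mul a b ha hb
  one_mem' := by decide
  inv_mem' := fun {a} ha => e_C1_inv a ha

theorem mem_C1sub (p : P) : p ∈ C1sub ↔ inC1 p = true := Iff.rfl

/-- The exponent of a rotation. -/
def rotExp : DihedralGroup 3 → ZMod 3
  | DihedralGroup.r k => k
  | DihedralGroup.sr _ => 0

theorem e_exp_mul : ∀ a b : P, inC1 a = true → inC1 b = true →
    rotExp (a * b).1 = rotExp a.1 + rotExp b.1 := by decide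
theorem e_exp_conj : ∀ q p : P, inC1 q = false → inC1 p = true →
    rotExp (q * p * q⁻¹).1 = - rotExp p.1 := by decide
theorem e_C1_conj : ∀ q p : P, inC1 p = true → inC1 (q * p * q⁻¹) = true := by decide
theorem e_exp_A1 : ∀ p : P, inC1 p = true → rotExp p.1 ≠ 0 → inA1 p = true := by decide
theorem e_A1_exp : ∀ p : P, inA1 p = true → inC1 p = true ∧ rotExp p.1 ≠ 0 := by decide
theorem e_card_C1 : (Finset.univ.filter (fun p : P => inC1 p = true)).card = 18 := by decide
theorem e_card_P : Fintype.card P = 36 := by decide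
theorem e_a_C1 : inC1 a₀ = true := by decide
theorem e_a_exp : rotExp a₀.1 ≠ 0 := by decide
theorem e_three : ∀ k : ZMod 3, (3 : ℕ) • k = 0 := by decide

/-- The exponent homomorphism on `C1₀`. -/
def expHom : C1sub →* Multiplicative (ZMod 3) where
  toFun p := Multiplicative.ofAdd (rotExp (p : P).1)
  map_one' := rfl
  map_mul' := fun p q => congrArg Multiplicative.ofAdd (e_exp_mul p q p.2 q.2)

/-- A faithful linear character of the cyclic group of order three. -/
noncomputable def omegaHom : Multiplicative (ZMod 3) →* ℂˣ :=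
  (ZMod.stdAddChar (N := 3)).toMonoidHom.toHomUnits

theorem omegaHom_coe (k : ZMod 3) :
    ((omegaHom (Multiplicative.ofAdd k) : ℂˣ) : ℂ) = ZMod.stdAddChar k := rfl

theorem omegaHom_ne_one {k : ZMod 3} (hk : k ≠ 0) : omegaHom (Multiplicative.ofAdd k) ≠ 1 := by
  intro h
  have h2 : ZMod.stdAddChar (N := 3) k = 1 := by rw [← omegaHom_coe, h, Units.val_one]
  rw [← (ZMod.stdAddChar (N := 3)).map_zero_eq_one] at h2
  exact hk (ZMod.injective_stdAddChar h2)

theorem omegaHom_cube (k : ZMod 3) : omegaHom (Multiplicative.ofAdd k) ^ 3 = 1 := by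
  rw [← map_pow, ← ofAdd_nsmul, e_three k]
  exact map_one _

theorem omega_sum {k : ZMod 3} (hk : k ≠ 0) :
    ((omegaHom (Multiplicative.ofAdd k) : ℂˣ) : ℂ) +
      (((omegaHom (Multiplicative.ofAdd k))⁻¹ : ℂˣ) : ℂ) = -1 := by
  generalize hζ : omegaHom (Multiplicative.ofAdd k) = ζ
  have h3 : (ζ : ℂ) ^ 3 = 1 := by
    rw [← Units.val_pow_eq_pow_val, ← hζ, omegaHom_cube, Units.val_one]
  have hne : (ζ : ℂ) ≠ 1 := fun h => omegaHom_ne_one hk (by rw [hζ]; exact Units.ext h)
  have h2 : (ζ : ℂ) ^ 2 + ζ + 1 = 0 := by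
    have : ((ζ : ℂ) - 1) * ((ζ : ℂ) ^ 2 + ζ + 1) = 0 := by linear_combination h3
    rcases mul_eq_zero.1 this with h | h
    · exact absurd (sub_eq_zero.1 h) hne
    · exact h
  have hinv : ((ζ⁻¹ : ℂˣ) : ℂ) = (ζ : ℂ) ^ 2 := by
    rw [Units.val_inv_eq_inv_val]
    exact inv_eq_of_mul_eq_one_right (by linear_combination h3)
  rw [hinv]
  linear_combination h2

theorem pkgExc : PkgExc.{u} := by
  intro hTIA G _ _ T M hloc
  classical
  haveI : Fintype G := Fintype.ofFinite G
  set C : Subgroup G := C1sub.map M.ψ with hC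
  set N : Subgroup G := Subgroup.normalizer (T : Set G) with hN
  let iso : C1sub ≃* C := C1sub.equivMapOfInjective M.ψ M.inj
  let ν : C →* ℂˣ := (omegaHom.comp expHom).comp iso.symm.toMonoidHom
  have hmemC : ∀ p : P, inC1 p = true → M.ψ p ∈ C := fun p hp =>
    Subgroup.mem_map_of_mem M.ψ hp
  have hCex : ∀ y : C, ∃ p : P, ∃ hp : inC1 p = true, y = ⟨M.ψ p, hmemC p hp⟩ := by
    intro y
    obtain ⟨p, hp, hpy⟩ := Subgroup.mem_map.1 y.2
    exact ⟨p, hp, Subtype.ext hpy.symm⟩
  have hν : ∀ (p : P) (hp : inC1 p = true),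
      ν ⟨M.ψ p, hmemC p hp⟩ = omegaHom (Multiplicative.ofAdd (rotExp p.1)) := by
    intro p hp
    have : iso.symm ⟨M.ψ p, hmemC p hp⟩ = ⟨p, hp⟩ := by
      rw [MulEquiv.symm_apply_eq]
      exact Subtype.ext rfl
    show omegaHom (expHom (iso.symm ⟨M.ψ p, hmemC p hp⟩)) = _
    rw [this]
    rfl
  have hCN : C ≤ N := by
    rw [hN, ← M.range_eq]
    exact Subgroup.map_le_range _ _
  have hcardC : Nat.card C = 18 := by
    rw [hC, Subgroup.card_map_of_injective M.inj, Nat.card_eq_fintype_card]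
    exact (Fintype.card_of_subtype _ (fun p => by
      simp only [Finset.mem_filter, Finset.mem_univ, true_and]
      exact (mem_C1sub p).symm)).trans e_card_C1
  have hcardN : Nat.card N = 36 := by
    rw [hN, ← M.range_eq, ← Nat.card_congr (MonoidHom.ofInjective M.inj).toEquiv,
      Nat.card_eq_fintype_card]
    exact e_card_P
  have hcard : Nat.card N = 2 * Nat.card C := by rw [hcardN, hcardC]
  have hnorm : ∀ x ∈ N, ∀ y ∈ C, x * y * x⁻¹ ∈ C := by
    intro x hx y hy
    rw [hN, ← M.range_eq] at hx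
    obtain ⟨q, rfl⟩ := hx
    obtain ⟨p, hp, rfl⟩ := Subgroup.mem_map.1 hy
    rw [← map_inv, ← map_mul, ← map_mul]
    exact hmemC _ (e_C1_conj q p hp)
  have hinv : ∀ (x : G) (hx : x ∈ N), x ∉ C → ∀ y : C,
      ν ⟨x * y * x⁻¹, hnorm x hx y y.2⟩ = (ν y)⁻¹ := by
    intro x hx hxC y
    have hx' := hx
    rw [hN, ← M.range_eq] at hx'
    obtain ⟨q, rfl⟩ := hx'
    obtain ⟨p, hp, rfl⟩ := hCex y
    have hq : inC1 q = false := by
      by_contra h
      exact hxC (hmemC q (by simpa using h))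
    have e : (⟨M.ψ q * M.ψ p * (M.ψ q)⁻¹, hnorm _ hx _ (hmemC p hp)⟩ : C) =
        ⟨M.ψ (q * p * q⁻¹), hmemC _ (e_C1_conj q p hp)⟩ :=
      Subtype.ext (by
        show M.ψ q * M.ψ p * (M.ψ q)⁻¹ = M.ψ (q * p * q⁻¹)
        rw [map_mul, map_mul, map_inv])
    rw [e, hν _ (e_C1_conj q p hp), hν p hp, e_exp_conj q p hq hp, ofAdd_neg, map_inv]
  have hTI : ∀ y : C, ν y ≠ 1 → ∀ g : G, g * y * g⁻¹ ∈ C → g ∈ N := by
    intro y hy g hg
    obtain ⟨p, hp, rfl⟩ := hCex y
    rw [hν p hp] at hy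
    have hA : inA1 p = true := e_exp_A1 p hp (fun h => hy (by rw [h]; exact map_one _))
    obtain ⟨q, _, hq⟩ := Subgroup.mem_map.1 hg
    exact hTIA T M hloc g p q hA hq.symm
  have hsq : ∃ y : C, (ν y) ^ 2 ≠ 1 := by
    refine ⟨⟨M.ψ a₀, hmemC a₀ e_a_C1⟩, ?_⟩
    rw [hν a₀ e_a_C1]
    intro h
    apply omegaHom_ne_one e_a_exp
    have h3 := omegaHom_cube (rotExp a₀.1)
    calc omegaHom (Multiplicative.ofAdd (rotExp a₀.1))
        = omegaHom (Multiplicative.ofAdd (rotExp a₀.1)) ^ 3 *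
          (omegaHom (Multiplicative.ofAdd (rotExp a₀.1)) ^ 2)⁻¹ := by group
      _ = 1 := by rw [h3, h]; simp
  obtain ⟨hn3, hn1⟩ := exc_theta_norm C N ν hCN hcard hnorm hinv hTI hsq
  have hgen : Cfsg.IsGeneralizedCharacter G (Cfsg.indFun C (excF C ν)) := by
    have e : excF C ν = (fun _ : C => (1 : ℂ)) - (fun y : C => ((ν y : ℂˣ) : ℂ)) := by
      funext y
      rfl
    rw [e, indFun_sub]
    exact ⟨_, _, Cfsg.Agent.Lib.Helper75.isCharacter_indFun C
        Cfsg.Agent.Lib.Helper80.isCharacter_one,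
      Cfsg.Agent.Lib.Helper75.isCharacter_indFun C
        (Cfsg.Agent.Lib.Helper15.isCharacter_of_hom ν), rfl⟩
  have h1 : Cfsg.indFun C (excF C ν) 1 = 0 := by
    have := exc_theta_apply C N ν hCN hcard hnorm hinv hTI 1
    rw [map_one] at this
    simp only [OneMemClass.coe_one, Units.val_one, inv_one] at this
    rw [this]
    norm_num
  obtain ⟨χ₁, χ₂, hχ₁, hχ₂, hne₁, hne₂, hdeg, hval⟩ :=
    gen_char_norm_three _ hgen h1 hn3 hn1
  refine ⟨χ₂, χ₁, ⟨hχ₂, hχ₁, hne₂, hne₁, hdeg, ?_, ?_⟩⟩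
  · intro g hg
    have h0 : Cfsg.indFun C (excF C ν) g = 0 := by
      unfold Cfsg.indFun
      rw [Finset.sum_eq_zero, mul_zero]
      intro x _
      by_cases hmem : x⁻¹ * g * x ∈ C
      · rw [extendByZero_of_mem C _ hmem]
        unfold excF
        by_cases hν1 : ν ⟨x⁻¹ * g * x, hmem⟩ = 1
        · rw [hν1]; simp
        · exfalso
          obtain ⟨p, hp, hpe⟩ := hCex ⟨x⁻¹ * g * x, hmem⟩
          rw [hpe, hν p hp] at hν1
          have hA : inA1 p = true := e_exp_A1 p hp (fun h => hν1 (by rw [h]; exact map_one _))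
          apply hg x⁻¹ p hA
          have := congrArg Subtype.val hpe
          simpa using this
      · exact extendByZero_of_not_mem C _ hmem
    have := hval g
    rw [h0] at this
    linear_combination this
  · intro p hp
    obtain ⟨hpC, hk⟩ := e_A1_exp p hp
    have h2 := hval (M.ψ p)
    have happ := exc_theta_apply C N ν hCN hcard hnorm hinv hTI ⟨M.ψ p, hmemC p hpC⟩
    rw [hν p hpC] at happ
    have hz := omega_sum hk
    simp only at happ
    rw [happ] at h2
    linear_combination h2 + hz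

end Cfsg.Agent.Lib.Helper9.S3805
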